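import Groth.Agent.Ega43.GeomAt
import Mathlib.AlgebraicGeometry.Morphisms.Flat

/-!
# Base change invariance of geometric properties at a point

`geomAt_iff_of_isPullback`: if `P` is invariant under isomorphism and descends along flat local
homomorphisms of local rings, then `GeomAt P f' x' ↔ GeomAt P f (g' x')` for every cartesian square.
-/

set_option autoImplicit false
universe u

open CategoryTheory Limits AlgebraicGeometry

namespace Groth.Agent.Ega4fib.H170.GeomAtBC

open Groth.Agent.Ega43.GeomAt

variable {P : ∀ (R : Type u) [CommRing R], Prop}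

/-- `P` descends along flat local homomorphisms of local rings. -/
def FlatDesc (P : ∀ (R : Type u) [CommRing R], Prop) : Prop :=
  ∀ (R S : Type u) [CommRing R] [CommRing S] [IsLocalRing R] [IsLocalRing S] (φ : R →+* S),
    IsLocalHom φ → φ.Flat → P S → P R

theorem geomAt_of_isPullback {X Y X' Y' : Scheme.{u}} {g' : X' ⟶ X} {f' : X' ⟶ Y'}
    {f : X ⟶ Y} {g : Y' ⟶ Y} (h : IsPullback g' f' f g) (x' : X')
    (hx : GeomAt P f (g'.base x')) : GeomAt P f' x' := by
  intro K _ Z a b j hZ z hz
  refine hx K Z (a ≫ g') b (j ≫ g) (hZ.paste_horiz h) z ?_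
  rw [Scheme.Hom.comp_base]
  change g'.base (a.base z) = _
  rw [hz]

theorem of_geomAt_of_isPullback (hd : FlatDesc P) {X Y X' Y' : Scheme.{u}}
    {g' : X' ⟶ X} {f' : X' ⟶ Y'} {f : X ⟶ Y} {g : Y' ⟶ Y} (h : IsPullback g' f' f g) (x' : X')
    (hx : GeomAt P f' x') : GeomAt P f (g'.base x') := by
  intro K _ Z a b j hZ z hz
  obtain ⟨w, hw1, hw2⟩ := Scheme.Pullback.exists_preimage_pullback (f := g') (g := a) x' z hz.symm
  let w0 := pullback.fst g' a
  let w1 := pullback.snd g' a
  have hW : IsPullback w0 w1 g' a := IsPullback.of_hasPullback g' a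
  let t1 := pullback.fst g j
  let t2 := pullback.snd g j
  have hT : IsPullback t1 t2 g j := IsPullback.of_hasPullback g j
  let s : pullback g' a ⟶ pullback g j := pullback.lift (w0 ≫ f') (w1 ≫ b) (by
    rw [Category.assoc, ← h.w, ← Category.assoc, hW.w, Category.assoc, hZ.w, Category.assoc])
  have hs1 : s ≫ t1 = w0 ≫ f' := pullback.lift_fst _ _ _
  have hs2 : s ≫ t2 = w1 ≫ b := pullback.lift_snd _ _ _
  have h1 : IsPullback w0 (w1 ≫ b) (f' ≫ g) j := by
    have := hW.paste_vert hZ
    rwa [h.w] at this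
  have h2 : IsPullback w0 s f' t1 := by
    refine IsPullback.of_bot (v₂₁ := t2) (v₂₂ := g) (h₃₁ := j) ?_ hs1.symm hT
    rw [hs2]
    exact h1
  have h3 : IsPullback w1 s b t2 := by
    refine IsPullback.of_right (h₁₂ := a) (h₂₂ := j) (v₁₃ := f) ?_ hs2.symm hZ
    have := h2.paste_horiz h
    rwa [hW.w, hT.w] at this
  let T := pullback g j
  let t : T := s.base w
  let L := T.residueField t
  let i : Spec L ⟶ T := T.fromSpecResidueField t
  have hi : t ∈ Set.range i.base := by
    rw [Scheme.range_fromSpecResidueField]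
    rfl
  obtain ⟨o, ho⟩ := hi
  obtain ⟨v, hv1, hv2⟩ := Scheme.Pullback.exists_preimage_pullback (f := s) (g := i) w o ho.symm
  have hV : IsPullback (pullback.fst s i) (pullback.snd s i) s i := IsPullback.of_hasPullback s i
  have h4 := hx L _ _ _ _ (hV.paste_horiz h2) v (by
    rw [Scheme.Hom.comp_base]
    change w0.base ((pullback.fst s i).base v) = _
    rw [hv1, hw1])
  have h5 : IsPullback (pullback.fst s i ≫ w1) (pullback.snd s i) b (i ≫ t2) :=
    hV.paste_horiz h3
  have hflat : Flat (i ≫ t2) := by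
    obtain ⟨φ, hφ⟩ := Spec.map_surjective (i ≫ t2)
    rw [← hφ, Flat.SpecMap_iff]
    let : Algebra K L := φ.hom.toAlgebra
    exact (inferInstanceAs (Module.Flat K L))
  have hflat' : Flat (pullback.fst s i ≫ w1) := MorphismProperty.of_isPullback h5.flip hflat
  have hz' : (pullback.fst s i ≫ w1).base v = z := by
    rw [Scheme.Hom.comp_base]
    change w1.base ((pullback.fst s i).base v) = _
    rw [hv1, hw2]
  subst hz'
  exact hd _ _ ((pullback.fst s i ≫ w1).stalkMap v).hom inferInstance
    (Flat.stalkMap _ _) h4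

/-- Geometric properties at a point are invariant under base change. -/
theorem geomAt_iff_of_isPullback (hd : FlatDesc P) {X Y X' Y' : Scheme.{u}}
    {g' : X' ⟶ X} {f' : X' ⟶ Y'} {f : X ⟶ Y} {g : Y' ⟶ Y} (h : IsPullback g' f' f g) (x' : X') :
    GeomAt P f' x' ↔ GeomAt P f (g'.base x') :=
  ⟨of_geomAt_of_isPullback hd h x', geomAt_of_isPullback h x'⟩

/-- A flat local homomorphism of local rings is injective. -/
theorem injective_of_flat_local {R S : Type u} [CommRing R] [CommRing S] [IsLocalRing R]
    [IsLocalRing S] (φ : R →+* S) (h1 : IsLocalHom φ) (h2 : φ.Flat) : Function.Injective φ := by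
  algebraize [φ]
  have : Module.FaithfullyFlat R S := Module.FaithfullyFlat.of_flat_of_isLocalHom
  exact FaithfulSMul.algebraMap_injective R S

theorem flatDesc_isDomain : FlatDesc.{u} (fun R _ => IsDomain R) := by
  intro R S _ _ _ _ φ h1 h2 h3
  exact (injective_of_flat_local φ h1 h2).isDomain

theorem flatDesc_isReduced : FlatDesc.{u} (fun R _ => _root_.IsReduced R) := by
  intro R S _ _ _ _ φ h1 h2 h3
  exact isReduced_of_injective φ (injective_of_flat_local φ h1 h2)

end Groth.Agent.Ega4fib.H170.GeomAtBC
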