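import Groth.Agent.Flat2D.GenFlatRed4
import Groth.Agent.FlatB.ConstrAffine
import Groth.Agent.Fga.IntegralSub

/-!
# Local constructibility in the source of loci which are open for flat morphisms

Let `E f x` be a predicate on points `x` of the source of a morphism `f`, invariant under base change
and under restriction to open subschemes of the source. If `{x | E f x}` is open for all flat
morphisms of finite presentation with Noetherian target, then it is locally constructible for
every morphism locally of finite presentation.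
-/

set_option autoImplicit false
universe u

open CategoryTheory Limits AlgebraicGeometry Topology

namespace Groth.Agent.Ega4fib.H170.SrcConstr

open Groth.Agent.Flat2D.ConstrNoeth

/-- Invariance hypotheses, and openness in the flat case. -/
structure FlatOpen (E : ∀ {X S : Scheme.{u}}, (X ⟶ S) → X → Prop) : Prop where
  bc : ∀ {X S X' S' : Scheme.{u}} {g' : X' ⟶ X} {f' : X' ⟶ S'} {f : X ⟶ S} {g : S' ⟶ S}
    [LocallyOfFinitePresentation f], IsPullback g' f' f g → ∀ x' : X', E f' x' ↔ E f (g'.base x')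
  openSrc : ∀ {U X S : Scheme.{u}} (j : U ⟶ X) [IsOpenImmersion j] (f : X ⟶ S)
    [LocallyOfFinitePresentation f] (v : U), E (j ≫ f) v ↔ E f (j.base v)
  flat : ∀ {X S : Scheme.{u}} (f : X ⟶ S) [Flat f] [LocallyOfFinitePresentation f]
    [IsNoetherian S], IsOpen {x : X | E f x}

variable {E : ∀ {X S : Scheme.{u}}, (X ⟶ S) → X → Prop}

theorem exists_nhd (hE : FlatOpen E) {X Y : Scheme.{u}} (f : X ⟶ Y) [IsNoetherian Y]
    [QuasiCompact f] [LocallyOfFinitePresentation f] (x : X) :
    ∃ V : Set ↑X, V ⊆ closure {x} ∧ x ∈ V ∧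
      IsOpen (Subtype.val ⁻¹' V : Set ↑(closure ({x} : Set ↑X))) ∧ ∀ x' ∈ V, E f x' = E f x := by
  obtain ⟨W, i, hicl, hWint, hgen, hrange⟩ := Fga.IntegralSub.exists_integral_closed (f.base x)
  let p := pullback.fst f i
  let q := pullback.snd f i
  have hpq : IsPullback p q f i := IsPullback.of_hasPullback f i
  obtain ⟨U, hUd, hUflat, hUfp⟩ := Flat2D.GenFlatRed.exists_dense_flat_fp q
  have hηU : genericPoint W ∈ U := by
    obtain ⟨w, hw⟩ := hUd.nonempty
    exact (genericPoint_specializes w).mem_open U.2 hw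
  let j : (q ⁻¹ᵁ U).toScheme ⟶ X := (q ⁻¹ᵁ U).ι ≫ p
  have hj : IsPullback j (q ∣_ U) f (U.ι ≫ i) :=
    (isPullback_morphismRestrict q U).flip.paste_horiz hpq
  have hWN : IsNoetherian W := by
    have := LocallyOfFiniteType.isLocallyNoetherian i
    have : CompactSpace W := i.isClosedEmbedding.compactSpace
    exact {}
  have hUN : IsNoetherian U.toScheme := by
    have : CompactSpace U.toScheme :=
      isCompact_iff_compactSpace.1 (TopologicalSpace.NoetherianSpace.isCompact (U : Set ↥W))
    exact {}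
  have hbc := fun z => hE.bc hj z
  have hjemb : IsEmbedding j.base := by
    have h1 : IsClosedImmersion p := MorphismProperty.of_isPullback hpq.flip hicl
    have : IsEmbedding (p.base ∘ (q ⁻¹ᵁ U).ι.base) :=
      p.isClosedEmbedding.isEmbedding.comp (q ⁻¹ᵁ U).ι.isOpenEmbedding.isEmbedding
    exact this
  have hO := hE.flat (q ∣_ U)
  obtain ⟨O, hOopen, hO'⟩ := hjemb.isInducing.isOpen_iff.1 hO
  obtain ⟨U', hU'open, hU'⟩ := i.isClosedEmbedding.isInducing.isOpen_iff.1 U.2
  have hrj : ∀ z ∈ closure ({x} : Set X), f.base z ∈ U' → ∃ z', j.base z' = z := by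
    intro z hz hzU
    have h1 : f.base z ∈ closure {f.base x} := by
      have := image_closure_subset_closure_image f.base.hom.continuous ⟨z, hz, rfl⟩
      simpa using this
    rw [← hrange] at h1
    obtain ⟨w, hw⟩ := h1
    have hwU : w ∈ U := by
      have : w ∈ i.base ⁻¹' U' := by
        change i.base w ∈ U'
        rw [hw]
        exact hzU
      rwa [hU'] at this
    obtain ⟨z', hz', -⟩ := Scheme.Pullback.exists_preimage_pullback (f := f) (g := U.ι ≫ i) z
      (⟨w, hwU⟩ : U) (by
        rw [Scheme.Hom.comp_apply, Scheme.Opens.ι_apply]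
        exact hw.symm)
    refine ⟨hj.isoPullback.inv.base z', ?_⟩
    rw [← hz', ← hj.isoPullback_inv_fst]
    rfl
  have hxU' : f.base x ∈ U' := by
    have : genericPoint W ∈ i.base ⁻¹' U' := by rw [hU']; exact hηU
    rwa [Set.mem_preimage, hgen] at this
  obtain ⟨x₀, hx₀⟩ := hrj x (subset_closure rfl) hxU'
  by_cases hx : E f x
  · refine ⟨closure {x} ∩ (f.base ⁻¹' U' ∩ O), Set.inter_subset_left,
      ⟨subset_closure rfl, hxU', ?_⟩, ?_, ?_⟩
    · have : x₀ ∈ j.base ⁻¹' O := by
        rw [hO']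
        exact (hbc x₀).2 (by rw [hx₀]; exact hx)
      rwa [Set.mem_preimage, hx₀] at this
    · have h1 : (Subtype.val ⁻¹' (closure {x} ∩ (f.base ⁻¹' U' ∩ O)) :
          Set ↑(closure ({x} : Set ↑X))) = Subtype.val ⁻¹' (f.base ⁻¹' U' ∩ O) := by
        ext z
        simp
      rw [h1]
      exact ((hU'open.preimage f.base.hom.continuous).inter hOopen).preimage continuous_subtype_val
    · rintro z ⟨hz, hzU', hzO⟩
      obtain ⟨z', rfl⟩ := hrj z hz hzU'
      have : z' ∈ j.base ⁻¹' O := hzO
      rw [hO'] at this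
      have h2 := (hbc z').1 this
      simp only [eq_iff_iff]
      exact ⟨fun _ => hx, fun _ => h2⟩
  · refine ⟨closure {x} ∩ f.base ⁻¹' U', Set.inter_subset_left,
      ⟨subset_closure rfl, hxU'⟩, ?_, ?_⟩
    · have h1 : (Subtype.val ⁻¹' (closure {x} ∩ f.base ⁻¹' U') :
          Set ↑(closure ({x} : Set ↑X))) = Subtype.val ⁻¹' (f.base ⁻¹' U') := by
        ext z
        simp
      rw [h1]
      exact (hU'open.preimage f.base.hom.continuous).preimage continuous_subtype_val
    · rintro z ⟨hz, hzU'⟩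
      obtain ⟨z', rfl⟩ := hrj z hz hzU'
      have h2 : x₀ ⤳ z' := by
        rw [← hjemb.isInducing.specializes_iff, hx₀]
        exact specializes_iff_mem_closure.2 hz
      simp only [eq_iff_iff]
      refine ⟨fun h3 => ?_, fun h3 => absurd h3 hx⟩
      have h4 : E (q ∣_ U) z' := (hbc z').2 h3
      have h5 : E (q ∣_ U) x₀ := h2.mem_open hO h4
      have h6 := (hbc x₀).1 h5
      rwa [hx₀] at h6

theorem finConstr_of_isAffine (hE : FlatOpen E) {X Y : Scheme.{u}} (f : X ⟶ Y) [IsAffine X]
    [IsAffine Y] [LocallyOfFinitePresentation f] : IsConstructible {x : X | E f x} := by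
  obtain ⟨X₀, Y₀, f₀, g', g, hN, hA, hA', h1, hpb⟩ :=
    FlatB.ConstrAffine.exists_noetherian_model f
  have hX₀ : IsNoetherian X₀ := by
    have := LocallyOfFiniteType.isLocallyNoetherian f₀
    have : CompactSpace X₀ := inferInstance
    exact {}
  have h0 : FinConstr (fun x : X₀ => E f₀ x) := finConstr_of_noetherian _ (exists_nhd hE f₀)
  have h4 : FinConstr (fun x : X => E f₀ (g' x)) :=
    h0.preimage_of_isSpectralMap (f := g') (g'.isSpectralMap)
  have h5 := h4.2 True
  have h6 : {x : X | E f x} = {x : X | E f₀ (g' x) = True} := by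
    ext x
    simp only [Set.mem_ofPred_eq, eq_iff_iff, iff_true]
    exact hE.bc hpb x
  rw [h6]
  exact h5

theorem isLocallyConstructible (hE : FlatOpen E) {X S : Scheme.{u}} (f : X ⟶ S)
    [LocallyOfFinitePresentation f] : IsLocallyConstructible {x : X | E f x} := by
  intro x
  obtain ⟨V, hV, hfV, -⟩ := exists_isAffineOpen_mem_and_subset (X := S) (x := f.base x) (U := ⊤) trivial
  obtain ⟨U, hU, hxU, hUV⟩ := exists_isAffineOpen_mem_and_subset (X := X) (x := x) (U := f ⁻¹ᵁ V) hfV
  have hU' : IsAffine U.toScheme := hU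
  have hV' : IsAffine V.toScheme := hV
  have hUV' : U ≤ f ⁻¹ᵁ V := hUV
  refine ⟨U, U.2.mem_nhds hxU, U.2, ?_⟩
  have h1 := finConstr_of_isAffine hE (f.resLE V U hUV)
  have h2 : {u : U | E (f.resLE V U hUV) u} = Subtype.val ⁻¹' {x : X | E f x} := by
    ext v
    have h3 : E (f.resLE V U hUV ≫ V.ι) v ↔ E f v.1 := by
      rw [Scheme.Hom.resLE_comp_ι]
      exact hE.openSrc U.ι f v
    have h4 : E (f.resLE V U hUV) v ↔ E (f.resLE V U hUV ≫ V.ι) v := by
      have h5 : IsPullback (𝟙 _) (f.resLE V U hUV) (f.resLE V U hUV ≫ V.ι) V.ι := by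
        have h6 : IsPullback (𝟙 _) (f.resLE V U hUV) (f.resLE V U hUV) (𝟙 _) :=
          IsPullback.of_horiz_isIso ⟨by simp⟩
        have h7 := h6.paste_vert (IsKernelPair.id_of_mono V.ι)
        rwa [Category.comp_id] at h7
      exact hE.bc h5 v
    exact h4.trans h3
  have h8 : IsConstructible (Subtype.val ⁻¹' {x : X | E f x} : Set U) := h2 ▸ h1
  exact h8

end Groth.Agent.Ega4fib.H170.SrcConstr
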